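import Mathlib
import Cfsg.Agent.Lib.Helper49.Shunt.SimsDefs

/-!
# Sims' theorem (suborbit of length 3): the permutation-group reduction `LemSimsRed`

A finite primitive faithful group with a suborbit of length three has point stabilizer `M` of
order `3`, or of order `3 * |D|` where `D = M ∩ N` (`N` the stabilizer of a point of the
suborbit) is a 2-group in the configuration of `LemSimsCore`.
-/

set_option autoImplicit false

namespace Cfsg.Agent.Lib.Helper21.Sims

open Pointwise MulAction

universe u v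

section Conj

variable {G : Type u} [Group G]

theorem mem_conj_smul {g x : G} {H : Subgroup G} :
    x ∈ MulAut.conj g • H ↔ g⁻¹ * x * g ∈ H := by
  rw [Subgroup.mem_pointwise_smul_iff_inv_smul_mem, MulAut.smul_def, MulAut.conj_inv_apply]

theorem card_conj_smul (g : G) (H : Subgroup G) :
    Nat.card ↥(MulAut.conj g • H) = Nat.card ↥H :=
  (Nat.card_congr (Subgroup.equivSMul (MulAut.conj g) H).toEquiv).symm

theorem conj_smul_smul (g h : G) (H : Subgroup G) :
    MulAut.conj g • MulAut.conj h • H = MulAut.conj (g * h) • H := by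
  rw [smul_smul, ← map_mul]

theorem mem_normalizer_of_conj_smul_eq {g : G} {H : Subgroup G} (h : MulAut.conj g • H = H) :
    g ∈ Subgroup.normalizer (H : Set G) := by
  rw [Subgroup.mem_normalizer_iff]
  intro x
  conv_rhs => rw [← h, mem_conj_smul]
  have e : g⁻¹ * (g * x * g⁻¹) * g = x := by group
  rw [e]

theorem sup_eq_top_of_isCoatom {A B : Subgroup G} (hA : IsCoatom A) (hB : IsCoatom B)
    (hne : A ≠ B) : A ⊔ B = ⊤ := by
  rcases hA.le_iff.mp (le_sup_left : A ≤ A ⊔ B) with h | h
  · exact h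
  · exfalso
    have hBA : B ≤ A := by
      rw [← h]
      exact le_sup_right
    rcases hB.le_iff.mp hBA with h' | h'
    · exact hA.1 h'
    · exact hne h'

theorem le_normalizer_closure_of_conj {S : Set G} {A : Subgroup G}
    (h : ∀ m ∈ A, ∀ x ∈ S, m * x * m⁻¹ ∈ S) :
    A ≤ Subgroup.normalizer (Subgroup.closure S : Set G) := by
  have key : ∀ m ∈ A, ∀ x ∈ Subgroup.closure S, m * x * m⁻¹ ∈ Subgroup.closure S := by
    intro m hm x hx
    induction hx using Subgroup.closure_induction with
    | mem y hy => exact Subgroup.subset_closure (h m hm y hy)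
    | one => simp
    | mul y z _ _ hy hz =>
      have e : m * (y * z) * m⁻¹ = (m * y * m⁻¹) * (m * z * m⁻¹) := by group
      rw [e]
      exact Subgroup.mul_mem _ hy hz
    | inv y _ hy =>
      have e : m * y⁻¹ * m⁻¹ = (m * y * m⁻¹)⁻¹ := by group
      rw [e]
      exact Subgroup.inv_mem _ hy
  intro m hm
  rw [Subgroup.mem_normalizer_iff]
  intro x
  refine ⟨key m hm x, fun hx => ?_⟩
  have := key m⁻¹ (A.inv_mem hm) _ hx
  have e : m⁻¹ * (m * x * m⁻¹) * m⁻¹⁻¹ = x := by group
  rwa [e] at this

variable {Ω : Type v} [MulAction G Ω]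

theorem stabilizer_smul_eq_conj_smul (h : G) (c : Ω) :
    stabilizer G (h • c) = MulAut.conj h • stabilizer G c := by
  ext x
  rw [mem_conj_smul, mem_stabilizer_iff, mem_stabilizer_iff]
  constructor
  · intro hx
    rw [mul_smul, mul_smul, hx, smul_smul, inv_mul_cancel, one_smul]
  · intro hx
    have h1 : h • (h⁻¹ * x * h) • c = h • c := by rw [hx]
    have e : h * (h⁻¹ * x * h) = x * h := by group
    rwa [smul_smul, e, mul_smul] at h1

/-- A normal subgroup contained in a point stabilizer of a transitive faithful action is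
trivial. -/
theorem eq_bot_of_normalizer_eq_top [FaithfulSMul G Ω] [IsPretransitive G Ω] {Y : Subgroup G}
    (hY : ∀ g : G, g ∈ Subgroup.normalizer (Y : Set G)) (a : Ω) (hle : Y ≤ stabilizer G a) :
    Y = ⊥ := by
  rw [eq_bot_iff]
  intro y hy
  rw [Subgroup.mem_bot]
  apply FaithfulSMul.eq_of_smul_eq_smul (α := Ω)
  intro ω
  obtain ⟨g, rfl⟩ := exists_smul_eq G a ω
  rw [one_smul]
  have h1 : g⁻¹ * y * g ∈ Y := by
    have := (Subgroup.mem_normalizer_iff.mp (hY g⁻¹) y).mp hy
    rwa [inv_inv] at this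
  have h2 : (g⁻¹ * y * g) • a = a := hle h1
  have e : y * g = g * (g⁻¹ * y * g) := by group
  rw [smul_smul, e, mul_smul, h2]

/-- An element of odd order fixing a point of an invariant 3-set fixes the set pointwise. -/
theorem odd_fix {x : G} (hodd : Odd (orderOf x)) {Δ : Set Ω} (hΔ : Δ.ncard = 3)
    (hx : ∀ c ∈ Δ, x • c ∈ Δ) {b : Ω} (hb : b ∈ Δ) (hxb : x • b = b) : ∀ c ∈ Δ, x • c = c := by
  intro c hc
  by_contra hne
  have hcb : b ≠ c := by
    intro h
    apply hne
    rw [← h]
    exact hxb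
  have hxcb : b ≠ x • c := by
    intro h
    apply hcb
    have h1 : x • b = x • c := by
      rw [hxb]
      exact h
    exact smul_left_cancel x h1
  have hcxc : c ≠ x • c := fun h => hne h.symm
  have hset : ({b, c, x • c} : Set Ω) = Δ := by
    apply Set.eq_of_subset_of_ncard_le
    · intro z hz
      simp only [Set.mem_insert_iff, Set.mem_singleton_iff] at hz
      rcases hz with rfl | rfl | rfl
      · exact hb
      · exact hc
      · exact hx _ hc
    · rw [hΔ, Set.ncard_eq_three.mpr ⟨b, c, x • c, hcb, hxcb, hcxc, rfl⟩]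
    · exact Set.finite_of_ncard_ne_zero (by rw [hΔ]; norm_num)
  have hxx : x • x • c = c := by
    have h1 : x • x • c ∈ ({b, c, x • c} : Set Ω) := by
      rw [hset]
      exact hx _ (hx _ hc)
    simp only [Set.mem_insert_iff, Set.mem_singleton_iff] at h1
    rcases h1 with h | h | h
    · exfalso
      have h2 : x • (x • c) = x • b := by
        rw [hxb]
        exact h
      exact hxcb (smul_left_cancel x h2).symm
    · exact h
    · exact absurd (smul_left_cancel x h) hne
  have hpow : ∀ k : ℕ, x ^ (2 * k) • c = c := by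
    intro k
    induction k with
    | zero => simp
    | succ k ih =>
      rw [show 2 * (k + 1) = 2 * k + 2 by ring, pow_add, mul_smul, pow_two, mul_smul, hxx, ih]
  obtain ⟨k, hk⟩ := hodd
  have h1 : x ^ (2 * k + 1) • c = x • c := by
    rw [pow_succ', mul_smul, hpow]
  have h2 : x ^ (2 * k + 1) = 1 := by
    rw [← hk]
    exact pow_orderOf_eq_one x
  rw [h2, one_smul] at h1
  exact hcxc h1

end Conj

/-- **Package K6a of S3385**: the permutation-group reduction of Sims' theorem. -/
theorem lemSimsRed : Cfsg.Agent.Lib.Helper49.Shunt.LemSimsRed.{u, v} := by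
  intro G _ _ Ω _ _ hprim a b h3
  haveI : IsPretransitive G Ω := hprim.toIsPretransitive
  haveI : Fact (Nat.Prime 2) := ⟨Nat.prime_two⟩
  generalize hM : stabilizer G a = M at h3 ⊢
  obtain ⟨N, hN⟩ : ∃ N : Subgroup G, N = stabilizer G b := ⟨_, rfl⟩
  have hmemM : ∀ x : G, x ∈ M ↔ x • a = a := fun x => by
    rw [← hM]
    exact mem_stabilizer_iff
  have hmemN : ∀ x : G, x ∈ N ↔ x • b = b := fun x => by
    rw [hN]
    exact mem_stabilizer_iff
  -- the index of `D = M ⊓ N` in `M` is three
  have hNM3 : N.relIndex M = 3 := by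
    have h1 : stabilizer ↥M b = N.subgroupOf M := by
      ext x
      rw [mem_stabilizer_iff, Subgroup.mem_subgroupOf, hmemN]
      rfl
    rw [Subgroup.relIndex, ← h1, index_stabilizer, ← Nat.card_coe_set_eq]
    exact h3
  obtain ⟨D, hD⟩ : ∃ D : Subgroup G, D = M ⊓ N := ⟨_, rfl⟩
  have hDM : D ≤ M := by
    rw [hD]
    exact inf_le_left
  have hDN : D ≤ N := by
    rw [hD]
    exact inf_le_right
  have hDM3 : D.relIndex M = 3 := by
    rw [hD, Subgroup.inf_relIndex_left]
    exact hNM3
  have hcard_rel : ∀ {H K : Subgroup G}, H ≤ K → Nat.card ↥H * H.relIndex K = Nat.card ↥K := by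
    intro H K hHK
    have := Subgroup.relIndex_mul_relIndex ⊥ H K bot_le hHK
    rwa [Subgroup.relIndex_bot_left, Subgroup.relIndex_bot_left] at this
  have hDpos : 0 < Nat.card ↥D := Nat.card_pos
  have hcM : Nat.card ↥M = 3 * Nat.card ↥D := by
    have := hcard_rel hDM
    rw [hDM3] at this
    omega
  have hMN : M ≠ N := by
    intro h
    rw [← h, Subgroup.relIndex_self] at hNM3
    norm_num at hNM3
  have hab : a ≠ b := by
    intro h
    apply hMN
    rw [← hM, hN, h]
  haveI : Nontrivial Ω := ⟨⟨a, b, hab⟩⟩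
  have hcoat : ∀ c : Ω, IsCoatom (stabilizer G c) := fun c =>
    (isCoatom_stabilizer_iff_preprimitive G c).mpr hprim
  have hMcoat : IsCoatom M := by
    rw [← hM]
    exact hcoat a
  have hNcoat : IsCoatom N := by
    rw [hN]
    exact hcoat b
  have hMNtop : M ⊔ N = ⊤ := sup_eq_top_of_isCoatom hMcoat hNcoat hMN
  obtain ⟨h₀, hh₀⟩ := exists_smul_eq G a b
  have hNconj : ∀ h : G, h • a = b → N = MulAut.conj h • M := by
    intro h hh
    rw [hN, ← hh, stabilizer_smul_eq_conj_smul, hM]
  have hcN : Nat.card ↥N = Nat.card ↥M := by rw [hNconj h₀ hh₀, card_conj_smul]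
  have hDN3 : D.relIndex N = 3 := by
    have h1 := hcard_rel hDN
    rw [hcN, hcM] at h1
    exact Nat.eq_of_mul_eq_mul_left hDpos (by rw [h1, mul_comm])
  -- normal subgroups inside `M` are trivial
  have hnormal : ∀ {A B Y : Subgroup G}, A ⊔ B = ⊤ → A ≤ Subgroup.normalizer (Y : Set G) →
      B ≤ Subgroup.normalizer (Y : Set G) → Y ≤ M → Y = ⊥ := by
    intro A B Y hAB hA hB hYM
    have htop : ∀ g : G, g ∈ Subgroup.normalizer (Y : Set G) := by
      intro g
      have : g ∈ A ⊔ B := by
        rw [hAB]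
        exact Subgroup.mem_top g
      exact (sup_le hA hB) this
    rw [← hM] at hYM
    exact eq_bot_of_normalizer_eq_top htop a hYM
  -- `D` is a 2-group
  have hΔM : (orbit ↥M b).ncard = 3 := by
    rw [← Nat.card_coe_set_eq]
    exact h3
  have hΔN : (orbit ↥N a).ncard = 3 := by
    have h1 : stabilizer ↥N a = M.subgroupOf N := by
      ext x
      rw [mem_stabilizer_iff, Subgroup.mem_subgroupOf, hmemM]
      rfl
    rw [← index_stabilizer, h1]
    show M.relIndex N = 3
    rw [← Subgroup.inf_relIndex_right, ← hD]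
    exact hDN3
  have hoddM : ∀ x ∈ D, Odd (orderOf x) → ∀ m ∈ M, x • m • b = m • b := by
    intro x hx hodd m hm
    refine odd_fix hodd hΔM ?_ (mem_orbit_self b) ((hmemN x).mp (hDN hx)) (m • b) ?_
    · rintro c ⟨m', rfl⟩
      exact ⟨⟨x, hDM hx⟩ * m', mul_smul (⟨x, hDM hx⟩ : ↥M) m' b⟩
    · exact ⟨⟨m, hm⟩, rfl⟩
  have hoddN : ∀ x ∈ D, Odd (orderOf x) → ∀ n ∈ N, x • n • a = n • a := by
    intro x hx hodd n hn
    refine odd_fix hodd hΔN ?_ (mem_orbit_self a) ((hmemM x).mp (hDM hx)) (n • a) ?_
    · rintro c ⟨n', rfl⟩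
      exact ⟨⟨x, hDN hx⟩ * n', mul_smul (⟨x, hDN hx⟩ : ↥N) n' a⟩
    · exact ⟨⟨n, hn⟩, rfl⟩
  have hconjM : ∀ m ∈ M, ∀ x ∈ {x : G | x ∈ D ∧ Odd (orderOf x)},
      m * x * m⁻¹ ∈ {x : G | x ∈ D ∧ Odd (orderOf x)} := by
    rintro m hm x ⟨hx, hodd⟩
    refine ⟨?_, ?_⟩
    · rw [hD]
      refine Subgroup.mem_inf.mpr ⟨M.mul_mem (M.mul_mem hm (hDM hx)) (M.inv_mem hm), ?_⟩
      rw [hmemN, mul_smul, mul_smul, hoddM x hx hodd m⁻¹ (M.inv_mem hm), smul_smul,
        mul_inv_cancel, one_smul]
    · have : orderOf (m * x * m⁻¹) = orderOf x :=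
        orderOf_injective (MulAut.conj m).toMonoidHom (MulAut.conj m).injective x
      rwa [this]
  have hconjN : ∀ n ∈ N, ∀ x ∈ {x : G | x ∈ D ∧ Odd (orderOf x)},
      n * x * n⁻¹ ∈ {x : G | x ∈ D ∧ Odd (orderOf x)} := by
    rintro n hn x ⟨hx, hodd⟩
    refine ⟨?_, ?_⟩
    · rw [hD]
      refine Subgroup.mem_inf.mpr ⟨?_, N.mul_mem (N.mul_mem hn (hDN hx)) (N.inv_mem hn)⟩
      rw [hmemM, mul_smul, mul_smul, hoddN x hx hodd n⁻¹ (N.inv_mem hn), smul_smul,
        mul_inv_cancel, one_smul]
    · have : orderOf (n * x * n⁻¹) = orderOf x :=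
        orderOf_injective (MulAut.conj n).toMonoidHom (MulAut.conj n).injective x
      rwa [this]
  have hO : Subgroup.closure {x : G | x ∈ D ∧ Odd (orderOf x)} = ⊥ := by
    apply hnormal hMNtop (le_normalizer_closure_of_conj hconjM)
      (le_normalizer_closure_of_conj hconjN)
    rw [Subgroup.closure_le]
    rintro x ⟨hx, -⟩
    exact hDM hx
  have hodd1 : ∀ x ∈ D, Odd (orderOf x) → x = 1 := by
    intro x hx hodd
    have : x ∈ Subgroup.closure {x : G | x ∈ D ∧ Odd (orderOf x)} :=
      Subgroup.subset_closure ⟨hx, hodd⟩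
    rw [hO] at this
    exact Subgroup.mem_bot.mp this
  have hD2 : IsPGroup 2 ↥D := by
    intro x
    have hpos : orderOf (x : G) ≠ 0 := (orderOf_pos (x : G)).ne'
    obtain ⟨k, m, hm, hkm⟩ := Nat.exists_eq_two_pow_mul_odd hpos
    refine ⟨k, ?_⟩
    apply Subtype.ext
    have h1 : orderOf ((x : G) ^ 2 ^ k) = m := by
      rw [orderOf_pow, hkm, Nat.gcd_eq_right (dvd_mul_right _ _),
        Nat.mul_div_cancel_left _ (by positivity)]
    have h2 : (x : G) ^ 2 ^ k = 1 :=
      hodd1 _ (Subgroup.pow_mem _ x.2 _) (by rw [h1]; exact hm)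
    simpa using h2
  obtain ⟨t, ht⟩ := IsPGroup.iff_card.mp hD2
  by_cases hDbot : D = ⊥
  · left
    rw [hcM, hDbot, Subgroup.card_bot]
  · right
    have hex : ∃ h : G, h • a = b ∧ MulAut.conj h • D ≠ D := by
      by_contra hcon
      push Not at hcon
      apply hDbot
      have hM' : M ≤ Subgroup.normalizer (D : Set G) := by
        intro m hm
        apply mem_normalizer_of_conj_smul_eq
        have h1 : MulAut.conj h₀ • MulAut.conj m • D = MulAut.conj h₀ • D := by
          rw [conj_smul_smul, hcon _ (by rw [mul_smul, (hmemM m).mp hm, hh₀]), hcon h₀ hh₀]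
        exact smul_left_cancel _ h1
      have hN' : N ≤ Subgroup.normalizer (D : Set G) := by
        intro n hn
        apply mem_normalizer_of_conj_smul_eq
        have h1 : MulAut.conj n • MulAut.conj h₀ • D = D := by
          rw [conj_smul_smul]
          exact hcon _ (by rw [mul_smul, hh₀, (hmemN n).mp hn])
        rwa [hcon h₀ hh₀] at h1
      exact hnormal hMNtop hM' hN' hDM
    obtain ⟨h, hh, hne⟩ := hex
    have hD₁N : MulAut.conj h • D ≤ N := by
      rw [hNconj h hh]
      exact Subgroup.pointwise_smul_le_pointwise_smul_iff.mpr hDM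
    have hcD₁ : Nat.card ↥(MulAut.conj h • D) = Nat.card ↥D := card_conj_smul h D
    have hD₁nle : ¬ MulAut.conj h • D ≤ D := by
      intro hle
      exact hne (Subgroup.eq_of_le_of_card_ge hle (by rw [hcD₁]))
    have hNle : N ≤ D ⊔ MulAut.conj h • D := by
      have hle : D ⊔ MulAut.conj h • D ≤ N := sup_le hDN hD₁N
      have h1 := Subgroup.relIndex_mul_relIndex D (D ⊔ MulAut.conj h • D) N le_sup_left hle
      rw [hDN3] at h1
      have h2 : D.relIndex (D ⊔ MulAut.conj h • D) ≠ 1 := by
        intro h'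
        rw [Subgroup.relIndex_eq_one] at h'
        exact hD₁nle (le_sup_right.trans h')
      have h3' : (D ⊔ MulAut.conj h • D).relIndex N = 1 := by
        have hdvd : D.relIndex (D ⊔ MulAut.conj h • D) ∣ 3 := Dvd.intro _ h1
        rcases (Nat.dvd_prime Nat.prime_three).mp hdvd with h' | h'
        · exact absurd h' h2
        · rw [h'] at h1
          omega
      exact Subgroup.relIndex_eq_one.mp h3'
    refine ⟨D, h⁻¹, hcM, ?_, ?_⟩
    · rw [inv_inv, Subgroup.inf_relIndex_right]
      have h1 : D.relIndex (MulAut.conj h • D) ≤ 3 := by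
        have := Subgroup.relIndex_le_of_le_right (H := D) hD₁N (by rw [hDN3]; norm_num)
        rwa [hDN3] at this
      have h2 : D.relIndex (MulAut.conj h • D) ≠ 1 := by
        intro h'
        rw [Subgroup.relIndex_eq_one] at h'
        exact hD₁nle h'
      have h3' : D.relIndex (MulAut.conj h • D) ∣ 2 ^ t := by
        have := Subgroup.relIndex_dvd_card D (MulAut.conj h • D)
        rwa [hcD₁, ht] at this
      obtain ⟨j, -, hj⟩ := (Nat.dvd_prime_pow Nat.prime_two).mp h3'
      rw [hj] at h1 h2 ⊢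
      rcases j with _ | _ | j
      · simp at h2
      · simp
      · exfalso
        have : 2 ^ (j + 1 + 1) ≥ 4 := by
          have := Nat.one_le_two_pow (n := j)
          rw [pow_succ, pow_succ]
          omega
        omega
    · intro Y hYD hsup hor
      rw [inv_inv] at hsup
      have hYM : Y ≤ M := hYD.trans hDM
      have hNY : N ≤ Subgroup.normalizer (Y : Set G) := hNle.trans hsup
      rcases hor with hA | hB
      · have hMle : M ≤ D ⊔ MulAut.conj h⁻¹ • D := by
          have h1 : MulAut.conj h⁻¹ • N ≤ MulAut.conj h⁻¹ • (D ⊔ MulAut.conj h • D) :=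
            Subgroup.pointwise_smul_le_pointwise_smul_iff.mpr hNle
          have e1 : MulAut.conj h⁻¹ • N = M := by
            rw [hNconj h hh, conj_smul_smul, inv_mul_cancel, map_one, one_smul]
          have e2 : MulAut.conj h⁻¹ • (D ⊔ MulAut.conj h • D) = D ⊔ MulAut.conj h⁻¹ • D := by
            rw [Subgroup.smul_sup, conj_smul_smul, inv_mul_cancel, map_one, one_smul, sup_comm]
          rwa [e1, e2] at h1
        exact hnormal hMNtop (hMle.trans (sup_le (le_sup_left.trans hsup) hA)) hNY hYM
      · have hpow : (h⁻¹ ^ 2)⁻¹ = h * h := by rw [inv_pow, inv_inv, pow_two]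
        rw [hpow] at hB
        have hN₁le : MulAut.conj h • N ≤ MulAut.conj h • D ⊔ MulAut.conj (h * h) • D := by
          have h1 : MulAut.conj h • N ≤ MulAut.conj h • (D ⊔ MulAut.conj h • D) :=
            Subgroup.pointwise_smul_le_pointwise_smul_iff.mpr hNle
          rwa [Subgroup.smul_sup, conj_smul_smul] at h1
        have hN₁Y : MulAut.conj h • N ≤ Subgroup.normalizer (Y : Set G) :=
          hN₁le.trans (sup_le (le_sup_right.trans hsup) hB)
        have hN₁ne : N ≠ MulAut.conj h • N := by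
          intro hEq
          have h1 : MulAut.conj h • D = N := by
            rw [hD, Subgroup.smul_inf, ← hNconj h hh, ← hEq, inf_idem]
          have h2 : Nat.card ↥D = Nat.card ↥N := by rw [← h1, card_conj_smul]
          rw [hcN, hcM] at h2
          omega
        have hN₁coat : IsCoatom (MulAut.conj h • N) := by
          rw [hN, ← stabilizer_smul_eq_conj_smul]
          exact hcoat _
        exact hnormal (sup_eq_top_of_isCoatom hNcoat hN₁coat hN₁ne) hNY hN₁Y hYM

end Cfsg.Agent.Lib.Helper21.Sims
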